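/-
The components of a fusion system with trivial core.
-/
import Cfsg.Agent.Fus.Comp
set_option autoImplicit false
set_option linter.unusedSectionVars false

namespace CF.Fus
open Cfsg Cfsg.FusionSystem Subgroup
variable {Ω : Type*} [Group Ω] {S T R P U V Y : Subgroup Ω} {F : FusionSystem S} {E : FusionSystem T}
  {C : FusionSystem U} {D : FusionSystem V} {p : ℕ} {f : Ω → Ω} {d : Ω}

theorem FIso.cz {F' : FusionSystem R} (h : FIso F f F') (hC : FIso C f D) (a : Cz C F Y) : Cz D F' (img f Y) := by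
  refine ⟨?_, fun P g hg => ?_⟩
  · rw [← hC.img_eq, ← h.img_CS (sub_le a.sub)]; exact img_mono a.1
  · obtain ⟨Q, hQ, rfl⟩ := hC.exists_img hg.le
    obtain ⟨k, hk, e⟩ := hC.pull hQ hg
    exact h.cmor (a.2 Q k hk) e

variable [Fact p.Prime]

theorem Sat.core_subn (hF : Sat F p) (h : E.IsSubnormalIn F p) (h0 : F.core = ⊥) : E.core = ⊥ :=
  subn_down (C := fun F => F.core = ⊥)
    (fun _ _ _ n e => le_bot_iff.1 (e ▸ le_core (n.satF.normal_core_of_inv n.toInv))) h hF h0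

theorem Sat.exists_cmp (hF : Sat F p) (h0 : F.core = ⊥) (n : S ≠ ⊥) :
    ∃ (U : Subgroup Ω) (C : FusionSystem U), Cmp C F p := by
  by_contra! k
  have := hF.constrained_iff.1 (hF.constrained_iff_cmp.2 fun {U C} => k U C)
  rw [h0] at this
  exact n (le_bot_iff.1 fun x hx => this (mem_CS.2 ⟨hx, fun y hy => by rw [mem_bot.1 hy]; simp⟩))

namespace Lay
variable (h : Lay E F p)
include h

theorem self : Lay E E p :=
  let ⟨_, _, l⟩ := h.nrm.satE.exists_lay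
  ⟨h.nrm.satE.nrm_refl, Cmp.le, fun a b => sub_trans (h.min (l.nrm' h.nrm) fun c => l.le (h.cmp c)) (l.min a b)⟩

theorem le_sup (c : Cmp C F p) : T ≤ U ⊔ CE C E p :=
  let ⟨_, _, _, _, _, n⟩ := (c.nrm_lay h).exists_cp_cent
  sub_le (h.self.min n fun d => (d.dich (c.nrm_lay h)).elim (·.trans le_sup_left) (·.trans le_sup_right))

theorem le_CE (c : Cmp C F p) (d : Cmp D F p) (n : U ≠ V) : V ≤ CE C E p :=
  ((h.cmp d).dich (c.nrm_lay h)).resolve_left fun a => ((h.cmp c).dich (d.nrm_lay h)).elim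
    (fun b => n (le_antisymm b a)) fun b => (h.cmp d).not_le le_rfl (a.trans (b.trans CE_le))

theorem cmp_eq {C' : FusionSystem U} (c : Cmp C F p) (d : Cmp C' F p) : C = C' :=
  eq_of_sub ((h.cmp c).down (d.nrm_lay h) le_rfl).sub ((h.cmp d).down (c.nrm_lay h) le_rfl).sub

theorem inf_CE (h0 : F.core = ⊥) (hd : d ∈ T) (k : ∀ {U} {C : FusionSystem U}, Cmp C F p → d ∈ CE C E p) : d = 1 := by
  haveI := h.nrm.satE.fin
  obtain ⟨V, ⟨M, a, b⟩, hm⟩ := exists_minimalFor_of_wellFoundedLT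
    (fun V : Subgroup Ω => ∃ M : FusionSystem V, Nrm M E p ∧ d ∈ V) (fun V => Nat.card V) ⟨T, E, h.nrm.satE.nrm_refl, hd⟩
  refine mem_bot.1 ((by_contra fun n => ?_ : V = ⊥) ▸ b)
  have s := subn_trans a.subn h.nrm.subn
  obtain ⟨U, C, c⟩ := a.satE.exists_cmp (h.nrm.satF.core_subn s h0) n
  obtain ⟨B, e, -⟩ := ((c.up s).nrm_lay h).exists_cent'
  obtain ⟨M', e', -⟩ := a.exists_meet e rfl
  haveI := fin_of_le a.le
  have := eq_of_le_of_card_ge (inf_le_left : V ⊓ CE C E p ≤ V)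
    (hm ⟨M', e', b, k (c.up s)⟩ (card_le_of_le inf_le_left))
  exact (c.up a.subn).not_le le_rfl (c.le.trans (this.ge.trans (inf_le_right.trans CE_le)))

theorem fus (c : Cmp C F p) (hf : Mor F P f) (hP : P ≤ T) : ∃ (V : Subgroup Ω) (D : FusionSystem V), Cmp D F p ∧
    ∀ x ∈ P, (x ∈ U → f x ∈ V) ∧ (x ∈ CE C E p → f x ∈ CE D E p) := by
  haveI := h.nrm.satE.fin
  obtain ⟨α, hα, g, hg, e⟩ := h.nrm.frat hP hf
  have i := h.nrm.toInv.fiso hα
  have n := c.nrm_lay h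
  obtain ⟨D, j⟩ := i.exists_sub C n.le rfl
  have c' := ((h.cmp c).fiso h.nrm.satE i j).up h.nrm.subn
  exact ⟨_, D, c', fun x hx => e x hx ▸ ⟨fun m => mem_img_of_mem (sc_maps n.sc hg hx m), fun m =>
    (c'.nrm_lay h).le_CE (i.cz j n.cz_CE) (mem_img_of_mem (sc_maps n.sc_CE hg hx m))⟩⟩

variable (h0 : F.core = ⊥) (k : ∀ {U V} {C : FusionSystem U} {D : FusionSystem V}, Cmp C F p → Cmp D F p → U = V)
include h0 k

theorem sub_of_one (a : Nrm D F p) (n : V ≠ ⊥) : E.IsSubsystemOf D :=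
  let ⟨_, _, c⟩ := a.satE.exists_cmp (a.satF.core_subn a.subn h0) n
  h.min a fun d => (k d (c.up a.subn)).le.trans c.le

theorem simple (n : T ≠ ⊥) : E.IsSimple p := ⟨h.nrm.satE.sat, n, fun V D a => (eq_or_ne V ⊥).imp_right fun m =>
  have b := h.nrm.satE.nrm a
  have e := hom_eq_of_sub b.sub (h.self.sub_of_one (h.nrm.satF.core_subn h.nrm.subn h0)
    (fun c d => k (c.up h.nrm.subn) (d.up h.nrm.subn)) b m)
  ⟨eq_of_hom_eq e, e⟩⟩
end Lay

theorem Cmp.na [Fact (Nat.Prime 2)] (c : Cmp C F 2) (hF : Sat F 2) (h0 : F.core = ⊥) :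
    ∃ s ∈ U, ∃ t ∈ U, s * s = 1 ∧ t * t = 1 ∧ s * t ≠ t * s := by
  by_contra! k
  let A : Subgroup Ω :=
    { carrier := {x | x ∈ U ∧ x * x = 1}
      one_mem' := ⟨one_mem _, mul_one 1⟩
      mul_mem' := fun {a b} x y => ⟨mul_mem x.1 y.1, by
        rw [mul_assoc, ← mul_assoc b, ← k a x.1 b y.1 x.2 y.2, mul_assoc, y.2, mul_one, x.2]⟩
      inv_mem' := fun {a} x => ⟨inv_mem x.1, by rw [← mul_inv_rev, x.2, inv_one]⟩ }
  have s := c.qs.sat
  haveI := s.fin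
  have l : A ≤ C.core := le_core (s.normal_of_abelian (sc_iff.2 ⟨fun _ x => x.1, fun R f hf x hx m =>
    ⟨hf.maps hx, by rw [← hf.mul hx hx, m.2, hf.mul.map_one]⟩⟩) fun a x b y => k b y.1 a x.1 y.2 x.2)
  rw [hF.core_subn c.subn h0] at l
  haveI := (nontrivial_iff_ne_bot _).2 c.qs.ne_bot
  obtain ⟨n, hn, e⟩ := s.pg.nontrivial_iff_card.1 ‹_›
  obtain ⟨x, hx⟩ := exists_prime_orderOf_dvd_card' (G := U) 2 (e ▸ dvd_pow_self 2 hn.ne')
  have := mem_bot.1 (l (⟨x.2, by rw [← sq, ← hx]; exact_mod_cast pow_orderOf_eq_one x⟩ : x.1 ∈ A))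
  rw [show x = 1 from Subtype.ext this, orderOf_one] at hx
  omega

end CF.Fus
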